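import Cfsg.Agent.ClassCount.SylowClasses
import Cfsg.Agent.SolvableStructure.Wielandt

/-!
Parts of the group order, conjugacy of nilpotent Hall subgroups and coverage of `π`-classes.
-/

set_option autoImplicit false

open Subgroup
open scoped Pointwise
open CfsgLib.ClassCount

namespace CfsgLib.PiClassHall7

universe u

/-- The `π`-part of `n`. -/
def part (π : Finset ℕ) (n : ℕ) : ℕ := π.prod fun q => q ^ n.factorization q

theorem part_dvd {π : Finset ℕ} (hπ : ∀ q ∈ π, q.Prime) {n : ℕ} : part π n ∣ n := by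
  induction π using Finset.induction with
  | empty => simp [part]
  | insert a π ha ih =>
    rw [part, Finset.prod_insert ha]
    refine Nat.Coprime.mul_dvd_of_dvd_of_dvd (Nat.Coprime.prod_right fun b hb => ?_)
      (Nat.ordProj_dvd n a) (ih fun q hq => hπ q (Finset.mem_insert_of_mem hq))
    exact Nat.Coprime.pow _ _ ((Nat.coprime_primes (hπ a (Finset.mem_insert_self _ _))
      (hπ b (Finset.mem_insert_of_mem hb))).mpr fun e => ha (e ▸ hb))

theorem part_pos {π : Finset ℕ} (hπ : ∀ q ∈ π, q.Prime) {n : ℕ} : 0 < part π n :=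
  Finset.prod_pos fun q hq => pow_pos (hπ q hq).pos _

theorem prime_mem_of_dvd_part {π : Finset ℕ} (hπ : ∀ q ∈ π, q.Prime) {n q : ℕ} (hq : q.Prime)
    (hd : q ∣ part π n) : q ∈ π := by
  obtain ⟨r, hr, hd'⟩ := (hq.prime.dvd_finsetProd_iff _).mp hd
  have := (Nat.prime_dvd_prime_iff_eq hq (hπ r hr)).mp (hq.dvd_of_dvd_pow hd')
  exact this ▸ hr

theorem factorization_part {π : Finset ℕ} (hπ : ∀ q ∈ π, q.Prime) {n q : ℕ} (hq : q ∈ π) :
    (part π n).factorization q = n.factorization q := by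
  rw [part, Nat.factorization_prod_apply fun r hr => (pow_pos (hπ r hr).pos _).ne',
    Finset.sum_eq_single q]
  · rw [(hπ q hq).factorization_pow, Finsupp.single_eq_same]
  · intro r hr hne
    rw [(hπ r hr).factorization_pow, Finsupp.single_eq_of_ne (Ne.symm hne)]
  · exact fun h => absurd hq h

theorem dvd_part {π : Finset ℕ} (hπ : ∀ q ∈ π, q.Prime) {n q : ℕ} (hn : n ≠ 0) (hq : q ∈ π)
    (hd : q ∣ n) : q ∣ part π n := by
  refine Nat.dvd_of_factorization_pos ?_
  rw [factorization_part hπ hq]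
  exact ((hπ q hq).factorization_pos_of_dvd hn hd).ne'

theorem not_dvd_div_part {π : Finset ℕ} (hπ : ∀ q ∈ π, q.Prime) {n q : ℕ} (hn : n ≠ 0)
    (hq : q ∈ π) : ¬ q ∣ n / part π n := by
  intro hd
  have hne : n / part π n ≠ 0 := (Nat.div_pos (Nat.le_of_dvd (Nat.pos_of_ne_zero hn)
    (part_dvd hπ)) (part_pos hπ)).ne'
  have h := (hπ q hq).factorization_pos_of_dvd hne hd
  rw [Nat.factorization_div (part_dvd hπ), Finsupp.tsub_apply, factorization_part hπ hq] at h
  omega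

theorem dvd_part_of_dvd {π : Finset ℕ} {m n : ℕ} (hn : n ≠ 0) (hd : m ∣ n) :
    part π m ∣ part π n :=
  Finset.prod_dvd_prod_of_dvd _ _ fun q _ => Nat.pow_dvd_pow q
    ((Nat.factorization_le_iff_dvd (ne_zero_of_dvd_ne_zero hn hd) hn).mpr hd q)

theorem part_insert {π : Finset ℕ} {p n : ℕ} (hp : p ∈ π) :
    part π n = p ^ n.factorization p * part (π.erase p) n :=
  (Finset.mul_prod_erase π (fun q => q ^ n.factorization q) hp).symm

variable {G : Type u} [Group G] [Finite G]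

theorem coprime_card_index {π : Finset ℕ} (hπ : ∀ q ∈ π, q.Prime) {H : Subgroup G}
    (hH : Nat.card H = part π (Nat.card G)) : (Nat.card H).Coprime H.index := by
  refine Nat.coprime_of_dvd fun q hq h1 h2 => ?_
  have hqπ : q ∈ π := prime_mem_of_dvd_part hπ hq (hH ▸ h1)
  have hidx : H.index = Nat.card G / part π (Nat.card G) := by
    rw [← hH]
    exact (Nat.div_eq_of_eq_mul_right Nat.card_pos H.card_mul_index.symm).symm
  exact not_dvd_div_part hπ Nat.card_pos.ne' hqπ (hidx ▸ h2)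

omit [Finite G] in
theorem mem_centralizer_conj {g x : G} {K : Subgroup G}
    (hx : x ∈ centralizer (K : Set G)) :
    g * x * g⁻¹ ∈ centralizer ((K.map (MulAut.conj g).toMonoidHom : Subgroup G) : Set G) := by
  rw [mem_centralizer_iff]
  rintro _ ⟨k, hk, rfl⟩
  have h := mem_centralizer_iff.mp hx k hk
  show g * k * g⁻¹ * (g * x * g⁻¹) = g * x * g⁻¹ * (g * k * g⁻¹)
  calc g * k * g⁻¹ * (g * x * g⁻¹) = g * (k * x) * g⁻¹ := by group
    _ = g * (x * k) * g⁻¹ := by rw [h]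
    _ = g * x * g⁻¹ * (g * k * g⁻¹) := by group

/-- Wielandt's theorem inside a subgroup. -/
theorem exists_conj_le {C H K : Subgroup G} (hH : H ≤ C) (hK : K ≤ C) (hn : Group.IsNilpotent H)
    (hcop : (Nat.card H).Coprime H.index)
    (hdvd : ∀ q : ℕ, q.Prime → q ∣ Nat.card K → q ∣ Nat.card H) :
    ∃ c ∈ C, K ≤ H.map (MulAut.conj c).toMonoidHom := by
  have h1 : Group.IsNilpotent (H.subgroupOf C) :=
    Group.nilpotent_of_mulEquiv (Subgroup.subgroupOfEquivOfLe hH).symm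
  have hc : ∀ L : Subgroup G, L ≤ C → Nat.card (L.subgroupOf C) = Nat.card L := fun L hL =>
    Nat.card_congr (Subgroup.subgroupOfEquivOfLe hL).toEquiv
  obtain ⟨x, hx⟩ := CfsgLib.Schmidt.wielandt (Nat.card (K.subgroupOf C)) (H.subgroupOf C)
    (K.subgroupOf C) rfl h1
    (by
      rw [hc H hH]
      exact Nat.Coprime.coprime_dvd_right (Dvd.intro _ (Subgroup.relIndex_mul_index hH)) hcop)
    (fun q hq hd => by rw [hc H hH]; rw [hc K hK] at hd; exact hdvd q hq hd)
  refine ⟨x, x.2, fun k hk => ?_⟩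
  have h2 := hx (show (⟨k, hK hk⟩ : C) ∈ K.subgroupOf C from hk)
  rw [Subgroup.mem_pointwise_smul_iff_inv_smul_mem] at h2
  simp only [MulAut.smul_def, MulAut.inv_apply, MulAut.conj_symm_apply,
    Subgroup.mem_subgroupOf] at h2
  exact ⟨_, h2, by simp [mul_assoc]⟩

/-- Nilpotent Hall subgroups of the same order inside `C` are conjugate in `C`. -/
theorem exists_conj_eq {C H K : Subgroup G} (hH : H ≤ C) (hK : K ≤ C) (hn : Group.IsNilpotent H)
    (hcop : (Nat.card H).Coprime H.index) (hcard : Nat.card K = Nat.card H) :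
    ∃ c ∈ C, H.map (MulAut.conj c).toMonoidHom = K := by
  obtain ⟨c, hc, hle⟩ := exists_conj_le hH hK hn hcop (fun q _ hd => hcard ▸ hd)
  refine ⟨c, hc, (Subgroup.eq_of_le_of_card_ge hle ?_).symm⟩
  rw [Subgroup.card_map_of_injective (MulAut.conj c).injective, hcard]

omit [Finite G] in
theorem isPiEl_of_dvd {π : Set ℕ} {x : G} {n : ℕ} (hd : orderOf x ∣ n)
    (hn : ∀ q : ℕ, q.Prime → q ∣ n → q ∈ π) : IsPiEl π x :=
  fun q hq h => hn q hq (h.trans hd)

omit [Finite G] in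
theorem isPiEl_conj {π : Set ℕ} {x : G} (c : G) (hx : IsPiEl π x) : IsPiEl π (c * x * c⁻¹) :=
  isPiEl_of_isConj (isConj_iff.mpr ⟨c, rfl⟩) hx

omit [Finite G] in
theorem isPiEl_coe {π : Set ℕ} {C : Subgroup G} {x : C} :
    IsPiEl π (x : G) ↔ IsPiEl π x := by
  simp only [IsPiEl, Subgroup.orderOf_coe]

/-- Classes counted along the classes of the `α`-parts, with chosen representatives. -/
theorem card_piClasses_le_sum {π α β : Set ℕ}
    (hsplit : ∀ g : G, IsPiEl π g → ∃ x y : G, x * y = g ∧ Commute x y ∧ IsPiEl α x ∧ IsPiEl β y)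
    [Fintype (PiClasses α G)] (rep : PiClasses α G → G)
    (hrep : ∀ c, ConjClasses.mk (rep c) = c.1) :
    Nat.card (PiClasses π G) ≤
      ∑ c, Nat.card (PiClasses β ↥(centralizer ({rep c} : Set G))) := by
  classical
  let D : PiClasses α G → Type u := fun c => PiClasses β ↥(centralizer ({rep c} : Set G))
  let repD : ∀ c, D c → ↥(centralizer ({rep c} : Set G)) := fun _ d =>
    Classical.choose (ConjClasses.mk_surjective d.1)
  have hrepD : ∀ c (d : D c), ConjClasses.mk (repD c d) = d.1 := fun _ d =>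
    Classical.choose_spec (ConjClasses.mk_surjective d.1)
  have key : ∀ e : PiClasses π G, ∃ cd : Σ c, D c,
      ConjClasses.mk (rep cd.1 * (repD cd.1 cd.2 : G)) = e.1 := by
    rintro ⟨e, he⟩
    obtain ⟨g, rfl⟩ := ConjClasses.mk_surjective e
    obtain ⟨x, y, hxy, hcomm, hx, hy⟩ := hsplit g (he g ConjClasses.mem_carrier_mk)
    let c : PiClasses α G := ⟨ConjClasses.mk x, mk_prop hx⟩
    obtain ⟨h, hh⟩ := isConj_iff.mp (ConjClasses.mk_eq_mk_iff_isConj.mp (hrep c).symm)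
    have hy'C : h * y * h⁻¹ ∈ centralizer ({rep c} : Set G) := by
      rw [mem_centralizer_singleton_iff, ← hh]
      calc h * y * h⁻¹ * (h * x * h⁻¹) = h * (y * x) * h⁻¹ := by group
        _ = h * (x * y) * h⁻¹ := by rw [hcomm.eq]
        _ = h * x * h⁻¹ * (h * y * h⁻¹) := by group
    let y' : ↥(centralizer ({rep c} : Set G)) := ⟨_, hy'C⟩
    have hy' : IsPiEl β y' := isPiEl_coe.mp (isPiEl_conj h hy)
    let d : D c := ⟨ConjClasses.mk y', mk_prop hy'⟩
    refine ⟨⟨c, d⟩, ?_⟩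
    obtain ⟨w, hw⟩ := isConj_iff.mp (ConjClasses.mk_eq_mk_iff_isConj.mp (hrepD c d).symm)
    rw [ConjClasses.mk_eq_mk_iff_isConj]
    refine (isConj_iff.mpr ⟨(w : G) * h, ?_⟩).symm
    have hwy : ((w : G) * (h * y * h⁻¹) * (w : G)⁻¹) = (repD c d : G) :=
      congrArg (fun z : ↥(centralizer ({rep c} : Set G)) => (z : G)) hw
    have hwx : (w : G) * (h * x * h⁻¹) * (w : G)⁻¹ = rep c := by
      rw [hh, mem_centralizer_singleton_iff.mp w.2]; group
    show (w : G) * h * g * ((w : G) * h)⁻¹ = rep c * (repD c d : G)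
    calc (w : G) * h * g * ((w : G) * h)⁻¹
        = ((w : G) * (h * x * h⁻¹) * (w : G)⁻¹) * ((w : G) * (h * y * h⁻¹) * (w : G)⁻¹) := by
          rw [← hxy]; group
      _ = _ := by rw [hwx, hwy]
  choose F hF using key
  have hinj : Function.Injective F := fun a b hab => Subtype.ext (by rw [← hF a, ← hF b, hab])
  calc Nat.card (PiClasses π G) ≤ Nat.card (Σ c, D c) := Nat.card_le_card_of_injective F hinj
    _ = _ := Nat.card_sigma

/-- A subgroup meeting every `π`-class bounds the number of `π`-classes. -/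
theorem card_piClasses_le_card_classes {π : Set ℕ} {H : Subgroup G}
    (hcov : ∀ g : G, IsPiEl π g → ∃ h ∈ H, IsConj g h) :
    Nat.card (PiClasses π G) ≤ Nat.card (ConjClasses H) := by
  classical
  have h : ∀ c : PiClasses π G, ∃ d : ConjClasses H, ConjClasses.map H.subtype d = c.1 := by
    rintro ⟨c, hc⟩
    obtain ⟨g, rfl⟩ := ConjClasses.mk_surjective c
    obtain ⟨x, hx, hgx⟩ := hcov g (hc g ConjClasses.mem_carrier_mk)
    exact ⟨ConjClasses.mk ⟨x, hx⟩, (ConjClasses.mk_eq_mk_iff_isConj.mpr hgx).symm⟩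
  choose d hd using h
  exact Nat.card_le_card_of_injective d fun a b hab => Subtype.ext (by rw [← hd a, ← hd b, hab])

omit [Finite G] in
/-- Coverage from coverage of the two commuting parts. -/
theorem cover_of_parts {π α β : Set ℕ} {A B H : Subgroup G} (hA : A ≤ H) (hB : B ≤ H)
    (hsplit : ∀ g : G, IsPiEl π g → ∃ x y : G, x * y = g ∧ Commute x y ∧ IsPiEl α x ∧ IsPiEl β y)
    (hAcov : ∀ x : G, IsPiEl α x → ∃ a ∈ A, IsConj x a)
    (hBcov : ∀ a ∈ A, IsPiEl α a → ∀ y : G, IsPiEl β y → a * y = y * a →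
      ∃ c : G, c * a = a * c ∧ c * y * c⁻¹ ∈ B) :
    ∀ g : G, IsPiEl π g → ∃ h ∈ H, IsConj g h := by
  intro g hg
  obtain ⟨x, y, rfl, hcomm, hx, hy⟩ := hsplit g hg
  obtain ⟨a, ha, hxa⟩ := hAcov x hx
  obtain ⟨u, rfl⟩ := isConj_iff.mp hxa
  have hcomm' : u * x * u⁻¹ * (u * y * u⁻¹) = u * y * u⁻¹ * (u * x * u⁻¹) := by
    calc u * x * u⁻¹ * (u * y * u⁻¹) = u * (x * y) * u⁻¹ := by group
      _ = u * (y * x) * u⁻¹ := by rw [hcomm.eq]
      _ = u * y * u⁻¹ * (u * x * u⁻¹) := by group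
  obtain ⟨c, hc, hcy⟩ := hBcov _ ha (isPiEl_conj u hx) _ (isPiEl_conj u hy) hcomm'
  refine ⟨(u * x * u⁻¹) * (c * (u * y * u⁻¹) * c⁻¹), mul_mem (hA ha) (hB hcy),
    isConj_iff.mpr ⟨c * u, ?_⟩⟩
  calc c * u * (x * y) * (c * u)⁻¹
      = (c * (u * x * u⁻¹) * c⁻¹) * (c * (u * y * u⁻¹) * c⁻¹) := by group
    _ = _ := by rw [hc]; group

omit [Finite G] in
theorem card_sup_of_normalizes {A B : Subgroup G} (h : A ≤ normalizer (B : Set G))
    (hcop : (Nat.card A).Coprime (Nat.card B)) :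
    Nat.card (A ⊔ B : Subgroup G) = Nat.card A * Nat.card B := by
  have hdis : Disjoint A B := Subgroup.disjoint_of_coprime_natCard hcop
  have hcoe : ((A ⊔ B : Subgroup G) : Set G) = (A : Set G) * B :=
    Subgroup.coe_mul_of_left_le_normalizer_right A B h
  rw [← Nat.card_prod]
  refine (Nat.card_congr (Equiv.ofBijective
    (fun ab : A × B => (⟨(ab.1 : G) * ab.2, mul_mem (mem_sup_left ab.1.2) (mem_sup_right ab.2.2)⟩ :
      (A ⊔ B : Subgroup G))) ⟨?_, ?_⟩)).symm
  · intro ab cd he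
    exact Subgroup.mul_injective_of_disjoint hdis (congrArg Subtype.val he)
  · rintro ⟨z, hz⟩
    rw [← SetLike.mem_coe, hcoe] at hz
    obtain ⟨a, ha, b, hb, rfl⟩ := hz
    exact ⟨(⟨a, ha⟩, ⟨b, hb⟩), rfl⟩

end CfsgLib.PiClassHall7
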