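import Cfsg.Agent.PiClassHall7.Routes

/-!
The counting contradiction when neither the Hall `σ`-subgroup nor the Sylow `p`-subgroup is
central in its normaliser.
-/

set_option autoImplicit false

open Subgroup
open CfsgLib.ClassCount

namespace CfsgLib.PiClassHall7

universe u

variable {G : Type u} [Group G] [Finite G] {σ : Finset ℕ} {p : ℕ} [hp : Fact p.Prime]

theorem prime_mul_le (hσ : ∀ q ∈ σ, q.Prime) {r n a b : ℕ} (hgap : ∀ q ∈ σ, r ≤ q)
    (hb : b = part σ n) (hab : a ∣ b) (hne : a ≠ b) : r * a ≤ b := by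
  obtain ⟨d, rfl⟩ := hab
  have hd : d ≠ 1 := fun h => hne (by rw [h, mul_one])
  obtain ⟨q, hq, hqd⟩ := Nat.exists_prime_and_dvd hd
  have hmem := prime_mem_of_dvd_part hσ hq (hb ▸ Dvd.dvd.mul_left hqd a)
  have hpos : 0 < a * d := hb ▸ part_pos hσ
  rw [mul_comm r a]
  exact Nat.mul_le_mul_left a ((hgap q hmem).trans
    (Nat.le_of_dvd (Nat.pos_of_ne_zero fun h => by simp [h] at hpos) hqd))

/-- Halving the `σ`-classes of a centraliser in which the abelian Hall subgroup is not central in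
its normaliser. -/
theorem centralizer_classes_le (hσ : ∀ q ∈ σ, q.Prime) {r : ℕ} (hgap : ∀ q ∈ σ, r ≤ q)
    {H0 : Subgroup G} (hcard : Nat.card H0 = part σ (Nat.card G)) (hcomm : IsMulCommutative H0)
    {x m : G} (hx : x ∈ centralizer (H0 : Set G)) (hmN : m ∈ normalizer (H0 : Set G))
    (hmx : m * x = x * m) (hmC : m ∉ centralizer (H0 : Set G)) :
    2 * r * Nat.card (PiClasses (σ : Set ℕ) ↥(centralizer ({x} : Set G))) ≤
      (r + 1) * Nat.card H0 := by
  set Cx := centralizer ({x} : Set G) with hCx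
  have hH0x : H0 ≤ Cx := fun h hh =>
    mem_centralizer_singleton_iff.mpr (mem_centralizer_iff.mp hx h hh)
  have hel : ∀ h : H0, IsPiEl (σ : Set ℕ) (⟨h, hH0x h.2⟩ : Cx) := fun h => isPiEl_coe.mp
    (isPiEl_of_dvd (x := (h : G)) (Subgroup.orderOf_coe h ▸ orderOf_dvd_natCard h)
      fun q hq hd => prime_mem_of_dvd_part hσ hq (hcard ▸ hd))
  let f : H0 → PiClasses (σ : Set ℕ) Cx := fun h =>
    ⟨ConjClasses.mk ⟨h, hH0x h.2⟩, mk_prop (hel h)⟩
  have hsurj : Function.Surjective f := by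
    rintro ⟨d, hd⟩
    obtain ⟨y, rfl⟩ := ConjClasses.mk_surjective d
    have hy : IsPiEl (σ : Set ℕ) (y : G) := isPiEl_coe.mpr (hd y ConjClasses.mem_carrier_mk)
    obtain ⟨c, hc, hle⟩ := exists_conj_le (C := Cx) hH0x (zpowers_le.mpr y.2)
      (isNilpotent_of_isMulCommutative hcomm) (coprime_card_index hσ hcard) (fun q hq hd' => by
        rw [Nat.card_zpowers] at hd'
        rw [hcard]
        exact dvd_part hσ Nat.card_pos.ne' (hy q hq hd') (hd'.trans (orderOf_dvd_natCard (y : G))))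
    obtain ⟨w, hw, hwy⟩ := hle (mem_zpowers (y : G))
    refine ⟨⟨w, hw⟩, Subtype.ext (ConjClasses.mk_eq_mk_iff_isConj.mpr
      (isConj_iff.mpr ⟨⟨c, hc⟩, Subtype.ext ?_⟩))⟩
    exact hwy
  let Z : Subgroup H0 := (centralizer ({m} : Set G)).subgroupOf H0
  have hmCx : m ∈ Cx := mem_centralizer_singleton_iff.mpr hmx
  have hfib := fibre_bound f hsurj 2 (Z : Set H0) fun h hh => by
    have hh' : m * (h : G) ≠ (h : G) * m := fun e =>
      hh (mem_subgroupOf.mpr (mem_centralizer_singleton_iff.mpr e.symm))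
    have hmem : m * (h : G) * m⁻¹ ∈ H0 := (mem_normalizer_iff.mp hmN _).mp h.2
    have : Nontrivial {y // f y = f h} := by
      refine ⟨⟨⟨h, rfl⟩, ⟨⟨_, hmem⟩, ?_⟩, fun e => hh' ?_⟩⟩
      · refine Subtype.ext (ConjClasses.mk_eq_mk_iff_isConj.mpr ?_)
        exact IsConj.symm (isConj_iff.mpr
          (⟨⟨m, hmCx⟩, Subtype.ext rfl⟩ : ∃ w : Cx, w * (⟨h, hH0x h.2⟩ : Cx) * w⁻¹ =
            (⟨m * (h : G) * m⁻¹, hH0x hmem⟩ : Cx)))
      · have e' : (h : G) = m * (h : G) * m⁻¹ :=
          congrArg (fun z : {y // f y = f h} => ((z.1 : H0) : G)) e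
        exact mul_inv_eq_iff_eq_mul.mp e'.symm
    exact Finite.one_lt_card_iff_nontrivial.mpr this
  have hne : Nat.card Z ≠ Nat.card H0 := fun e => hmC (mem_centralizer_iff.mpr fun h hh => by
    have : (⟨h, hh⟩ : H0) ∈ Z := by
      rw [Subgroup.eq_top_of_card_eq Z e]
      exact mem_top _
    exact mem_centralizer_singleton_iff.mp (mem_subgroupOf.mp this))
  have hZ : r * Nat.card Z ≤ Nat.card H0 :=
    prime_mul_le hσ hgap hcard (Subgroup.card_subgroup_dvd_card Z) hne
  rw [show (2 - 1 : ℕ) = 1 from rfl, one_mul] at hfib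
  calc 2 * r * Nat.card (PiClasses (σ : Set ℕ) ↥Cx)
      = r * (2 * Nat.card (PiClasses (σ : Set ℕ) ↥Cx)) := by ring
    _ ≤ r * (Nat.card H0 + Nat.card Z) := Nat.mul_le_mul_left _ hfib
    _ ≤ _ := by rw [mul_add, add_mul, one_mul]; exact Nat.add_le_add_left hZ _

/-- The counting bound. -/
theorem classes_le_of_not_central (hσ : ∀ q ∈ σ, q.Prime) (hpσ : p ∉ σ)
    (hgap : ∀ q ∈ σ, p + 2 ≤ q) {H0 : Subgroup G} (hcard : Nat.card H0 = part σ (Nat.card G))
    (hcomm : IsMulCommutative H0)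
    (hN : ¬ normalizer (H0 : Set G) ≤ centralizer (H0 : Set G))
    (T : Sylow p ↥(centralizer (H0 : Set G)))
    (hT : p * Nat.card (T : Subgroup ↥(centralizer (H0 : Set G))) ≤
      p ^ (Nat.card G).factorization p)
    (hK : 2 * p * Nat.card (PiClasses ({p} : Set ℕ) G) ≤
      (p + 1) * p ^ (Nat.card G).factorization p)
    (hrec : ∀ x : G, Nat.card H0 <
        (p + 1) * Nat.card (PiClasses (σ : Set ℕ) ↥(centralizer ({x} : Set G))) →
      ∃ K : Subgroup G, K ≤ centralizer ({x} : Set G) ∧ Nat.card K = Nat.card H0) :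
    p * Nat.card (PiClasses ((insert p σ : Finset ℕ) : Set ℕ) G) ≤
      part (insert p σ) (Nat.card G) := by
  classical
  haveI : Fintype (PiClasses ({p} : Set ℕ) G) := Fintype.ofFinite _
  haveI : Fintype (PiClasses ({p} : Set ℕ) (centralizer (H0 : Set G))) := Fintype.ofFinite _
  -- representatives centralising `H0` where possible
  have hex : ∀ c : PiClasses ({p} : Set ℕ) G, ∃ x : G, ConjClasses.mk x = c.1 ∧
      ((∃ z ∈ (centralizer (H0 : Set G)), ConjClasses.mk z = c.1) → x ∈ (centralizer (H0 : Set G))) := by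
    intro c
    by_cases h : ∃ z ∈ (centralizer (H0 : Set G)), ConjClasses.mk z = c.1
    · obtain ⟨z, hz, hzc⟩ := h
      exact ⟨z, hzc, fun _ => hz⟩
    · obtain ⟨z, hz⟩ := ConjClasses.mk_surjective c.1
      exact ⟨z, hz, fun h' => absurd h' h⟩
  choose rep hrep hrepC using hex
  -- the classes of `(centralizer (H0 : Set G))` over a class of `G`
  let f : PiClasses ({p} : Set ℕ) (centralizer (H0 : Set G)) → PiClasses ({p} : Set ℕ) G := fun d =>
    ⟨ConjClasses.map (centralizer (H0 : Set G)).subtype d.1, by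
      obtain ⟨z, hz⟩ := ConjClasses.mk_surjective d.1
      rw [← hz]
      exact mk_prop (isPiEl_coe.mpr (d.2 z (ConjClasses.mem_carrier_iff_mk_eq.mpr hz)))⟩
  let n : PiClasses ({p} : Set ℕ) G → ℕ := fun c => (Finset.univ.filter fun d => f d = c).card
  have hn : ∑ c, n c ≤ Nat.card (T : Subgroup ↥(centralizer (H0 : Set G))) := by
    rw [← Finset.card_eq_sum_card_fiberwise (fun d _ => Finset.mem_univ (f d)), Finset.card_univ,
      ← Nat.card_eq_fintype_card]
    exact card_piClasses_singleton_le T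
  set M0 := Nat.card H0 with hM0
  let a : PiClasses ({p} : Set ℕ) G → ℕ := fun c =>
    Nat.card (PiClasses (σ : Set ℕ) ↥(centralizer ({rep c} : Set G)))
  have hle : ∀ x : G, Nat.card (PiClasses (σ : Set ℕ) ↥(centralizer ({x} : Set G))) ≤ M0 := fun x => by
    refine (card_piClasses_le σ hσ _).trans ?_
    rw [hcard]
    exact Nat.le_of_dvd (part_pos hσ)
      (dvd_part_of_dvd Nat.card_pos.ne' (Subgroup.card_subgroup_dvd_card _))
  have key : ∀ c, 2 * (p + 2) * (p + 1) * a c ≤ M0 * (2 * (p + 2) + (p + 1) ^ 2 * n c) := by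
    intro c
    by_cases hgood : rep c ∈ (centralizer (H0 : Set G))
    · have hel : IsPiEl ({p} : Set ℕ) (rep c) :=
        c.2 _ (ConjClasses.mem_carrier_iff_mk_eq.mpr (hrep c))
      let d1 : PiClasses ({p} : Set ℕ) (centralizer (H0 : Set G)) :=
        ⟨ConjClasses.mk ⟨rep c, hgood⟩, mk_prop (isPiEl_coe.mp hel)⟩
      have hd1 : d1 ∈ Finset.univ.filter fun d => f d = c :=
        Finset.mem_filter.mpr ⟨Finset.mem_univ _, Subtype.ext (hrep c)⟩
      have hn1 : 1 ≤ n c := Finset.card_pos.mpr ⟨d1, hd1⟩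
      by_cases hn2 : 2 ≤ n c
      · have := hle (rep c)
        calc 2 * (p + 2) * (p + 1) * a c ≤ 2 * (p + 2) * (p + 1) * M0 := Nat.mul_le_mul_left _ this
          _ ≤ M0 * (2 * (p + 2) + (p + 1) ^ 2 * 2) := by nlinarith
          _ ≤ _ := Nat.mul_le_mul_left _ (Nat.add_le_add_left (Nat.mul_le_mul_left _ hn2) _)
      · have hnc : n c = 1 := by omega
        obtain ⟨v, hv, hvC⟩ := SetLike.not_le_iff_exists.mp hN
        have hvx : v * rep c * v⁻¹ ∈ (centralizer (H0 : Set G)) := by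
          have := mem_centralizer_conj (g := v) hgood
          rwa [CfsgLib.Coprime.map_conj_eq_of_mem_normalizer hv] at this
        let d2 : PiClasses ({p} : Set ℕ) (centralizer (H0 : Set G)) :=
          ⟨ConjClasses.mk ⟨_, hvx⟩, mk_prop (isPiEl_coe.mp (isPiEl_conj v hel))⟩
        have hd2 : d2 ∈ Finset.univ.filter fun d => f d = c := by
          refine Finset.mem_filter.mpr ⟨Finset.mem_univ _, Subtype.ext ?_⟩
          show ConjClasses.mk (v * rep c * v⁻¹) = c.1
          rw [← hrep c, ConjClasses.mk_eq_mk_iff_isConj]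
          exact (isConj_iff.mpr ⟨v, rfl⟩).symm
        have heq : d2 = d1 := Finset.card_le_one.mp hnc.le _ hd2 _ hd1
        obtain ⟨w, hw⟩ := isConj_iff.mp
          (ConjClasses.mk_eq_mk_iff_isConj.mp (congrArg Subtype.val heq))
        have hw' : (w : G) * (v * rep c * v⁻¹) * (w : G)⁻¹ = rep c := congrArg Subtype.val hw
        have hb := centralizer_classes_le hσ hgap hcard hcomm hgood
          (m := (w : G) * v) (mul_mem (centralizer_le_normalizer _ w.2) hv)
          (by
            calc (w : G) * v * rep c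
                = (w : G) * (v * rep c * v⁻¹) * (w : G)⁻¹ * ((w : G) * v) := by group
              _ = _ := by rw [hw'])
          (fun h => hvC (by simpa using mul_mem (inv_mem w.2) h))
        rw [hnc]
        calc 2 * (p + 2) * (p + 1) * a c = (p + 1) * (2 * (p + 2) * a c) := by ring
          _ ≤ (p + 1) * ((p + 2 + 1) * M0) := Nat.mul_le_mul_left _ hb
          _ ≤ _ := by nlinarith
    · have hbad : (p + 1) * a c ≤ M0 := by
        by_contra h
        obtain ⟨K, hK1, hK2⟩ := hrec (rep c) (not_le.mp h)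
        obtain ⟨g, -, hg⟩ := exists_conj_eq (C := (⊤ : Subgroup G)) le_top (le_top : K ≤ ⊤)
          (isNilpotent_of_isMulCommutative hcomm) (coprime_card_index hσ hcard) hK2
        refine hgood (hrepC c ⟨g⁻¹ * rep c * g, ?_, ?_⟩)
        · rw [mem_centralizer_iff]
          intro h hh
          have h' : g * h * g⁻¹ ∈ K := hg ▸ mem_map_of_mem _ hh
          have e := mem_centralizer_singleton_iff.mp (hK1 h')
          calc h * (g⁻¹ * rep c * g) = g⁻¹ * (g * h * g⁻¹ * rep c) * g := by group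
            _ = g⁻¹ * (rep c * (g * h * g⁻¹)) * g := by rw [e]
            _ = g⁻¹ * rep c * g * h := by group
        · rw [← hrep c, ConjClasses.mk_eq_mk_iff_isConj]
          exact isConj_iff.mpr ⟨g, by group⟩
      calc 2 * (p + 2) * (p + 1) * a c = 2 * (p + 2) * ((p + 1) * a c) := by ring
        _ ≤ 2 * (p + 2) * M0 := Nat.mul_le_mul_left _ hbad
        _ ≤ _ := by
          rw [mul_comm]
          exact Nat.mul_le_mul_left _ (Nat.le_add_right _ _)
  have hk : Nat.card (PiClasses ((insert p σ : Finset ℕ) : Set ℕ) G) ≤ ∑ c, a c :=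
    card_piClasses_le_sum (split_prime hpσ) rep hrep
  rw [part, Finset.prod_insert hpσ, ← part, ← hcard]
  set P := p ^ (Nat.card G).factorization p
  suffices h : 2 * (p + 2) * (p + 1) *
      (p * Nat.card (PiClasses ((insert p σ : Finset ℕ) : Set ℕ) G)) ≤
      2 * (p + 2) * (p + 1) * (P * M0) from
    Nat.le_of_mul_le_mul_left h
      (Nat.mul_pos (Nat.mul_pos Nat.two_pos (Nat.succ_pos _)) (Nat.succ_pos _))
  calc 2 * (p + 2) * (p + 1) * (p * Nat.card (PiClasses ((insert p σ : Finset ℕ) : Set ℕ) G))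
      ≤ 2 * (p + 2) * (p + 1) * (p * ∑ c, a c) := Nat.mul_le_mul_left _ (Nat.mul_le_mul_left _ hk)
    _ = p * ∑ c, 2 * (p + 2) * (p + 1) * a c := by
        rw [← Finset.mul_sum]; ring
    _ ≤ p * ∑ c, M0 * (2 * (p + 2) + (p + 1) ^ 2 * n c) :=
        Nat.mul_le_mul_left _ (Finset.sum_le_sum fun c _ => key c)
    _ = p * (M0 * (2 * (p + 2) * Nat.card (PiClasses ({p} : Set ℕ) G) + (p + 1) ^ 2 * ∑ c, n c)) := by
        rw [← Finset.mul_sum, Finset.sum_add_distrib, Finset.sum_const, smul_eq_mul,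
          ← Finset.mul_sum, Nat.card_eq_fintype_card, Finset.card_univ]
        ring
    _ ≤ p * (M0 * (2 * (p + 2) * Nat.card (PiClasses ({p} : Set ℕ) G) +
          (p + 1) ^ 2 * Nat.card (T : Subgroup ↥(centralizer (H0 : Set G))))) := by gcongr
    _ = M0 * ((p + 2) * (2 * p * Nat.card (PiClasses ({p} : Set ℕ) G)) +
          (p + 1) ^ 2 * (p * Nat.card (T : Subgroup ↥(centralizer (H0 : Set G))))) := by ring
    _ ≤ M0 * ((p + 2) * ((p + 1) * P) + (p + 1) ^ 2 * P) :=
        Nat.mul_le_mul_left _ (Nat.add_le_add (Nat.mul_le_mul_left _ hK) (Nat.mul_le_mul_left _ hT))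
    _ ≤ _ := by nlinarith [Nat.zero_le (M0 * P)]

end CfsgLib.PiClassHall7
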