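import Cfsg.Agent.Chars.Basic.Linear
import Cfsg.Agent.Chars.Basic.ClassSum
import Mathlib.GroupTheory.Nilpotent

/-!
A finite group with many classes compared with its least prime divisor is nilpotent with a small
derived subgroup.
-/

set_option autoImplicit false

namespace CfsgLib.PiClassHall7

open CfsgLib.Chars
open scoped commutatorElement

universe u

variable {H : Type u} [Group H] [Finite H]

/-- `s² k(H) + [H : H'] ≤ |H| + s² [H : H']` when every prime divisor of `|H|` is at least `s`. -/
theorem sq_mul_card_classes_le (s : ℕ) (hs : ∀ q : ℕ, q.Prime → q ∣ Nat.card H → s ≤ q) :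
    s ^ 2 * Nat.card (ConjClasses H) + (commutator H).index ≤
      Nat.card H + s ^ 2 * (commutator H).index := by
  classical
  set F : Finset (Cfsg.IrrCharacter H) := Finset.univ.filter
    (fun χ : Cfsg.IrrCharacter H => (χ : H → ℂ) 1 ≠ 1) with hF
  have hk : Nat.card (ConjClasses H) = (commutator H).index + F.card := by
    rw [← card_irrCharacter, Nat.card_eq_fintype_card, ← Finset.card_univ,
      ← Finset.card_filter_add_card_filter_not
        (s := (Finset.univ : Finset (Cfsg.IrrCharacter H))) (p := fun χ => (χ : H → ℂ) 1 = 1)]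
    congr 1
    rw [← card_linear_irr, Nat.card_eq_fintype_card, Fintype.card_subtype]
  have hsum := sum_nonlinear_sq (G := H)
  rw [← hF] at hsum
  have hle : F.card * s ^ 2 ≤ ∑ χ ∈ F, Cfsg.charDegree (χ : H → ℂ) ^ 2 := by
    refine le_trans (le_of_eq (by simp [mul_comm])) (Finset.sum_le_sum (f := fun _ => s ^ 2)
      fun χ hχ => Nat.pow_le_pow_left ?_ 2)
    have hne : Cfsg.charDegree (χ : H → ℂ) ≠ 1 := fun h =>
      (Finset.mem_filter.mp hχ).2 ((charDegree_eq_one_iff χ).mp h)
    obtain ⟨q, hq, hqd⟩ := Nat.exists_prime_and_dvd hne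
    exact (hs q hq (hqd.trans (charDegree_dvd_card χ))).trans
      (Nat.le_of_dvd (charDegree_pos χ) hqd)
  rw [hk, mul_add]
  linarith

theorem two_le_of_many (s : ℕ) (hk : Nat.card H < s * Nat.card (ConjClasses H)) : 2 ≤ s := by
  have h1 : Nat.card (ConjClasses H) ≤ Nat.card H :=
    Nat.card_le_card_of_surjective _ ConjClasses.mk_surjective
  by_contra h
  have : s * Nat.card (ConjClasses H) ≤ 1 * Nat.card H := Nat.mul_le_mul (by omega) h1
  omega

/-- The derived subgroup is small. -/
theorem card_commutator_le (s : ℕ) (hs : ∀ q : ℕ, q.Prime → q ∣ Nat.card H → s ≤ q)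
    (hk : Nat.card H < s * Nat.card (ConjClasses H)) : Nat.card (commutator H) ≤ s := by
  obtain ⟨t, rfl⟩ : ∃ t, s = t + 2 := ⟨s - 2, by have := two_le_of_many s hk; omega⟩
  have h := sq_mul_card_classes_le (t + 2) hs
  have hDL := (commutator H).card_mul_index
  by_contra hD
  rw [Nat.not_le] at hD
  have h2 : (t + 2) * (Nat.card H + 1) ≤ (t + 2) * ((t + 2) * Nat.card (ConjClasses H)) :=
    Nat.mul_le_mul_left _ hk
  rw [← hDL] at h h2
  set D := Nat.card (commutator H)
  set L := (commutator H).index
  have h3 : (t + 3) * L ≤ D * L := Nat.mul_le_mul_right L hD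
  nlinarith

/-- Many classes relative to a number below every prime divisor: the group is abelian. -/
theorem commutative_of_many (s : ℕ) (hs : ∀ q : ℕ, q.Prime → q ∣ Nat.card H → s < q)
    (hk : Nat.card H < s * Nat.card (ConjClasses H)) : IsMulCommutative H := by
  have hD := card_commutator_le s (fun q hq hd => (hs q hq hd).le) hk
  have h1 : Nat.card (commutator H) = 1 := by
    by_contra h
    obtain ⟨q, hq, hqd⟩ := Nat.exists_prime_and_dvd h
    have := hs q hq (hqd.trans (Subgroup.card_subgroup_dvd_card _))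
    have := Nat.le_of_dvd Nat.card_pos hqd
    omega
  have hbot : commutator H = ⊥ := Subgroup.card_eq_one.mp h1
  refine ⟨⟨fun a b => ?_⟩⟩
  have : ⁅a, b⁆ ∈ commutator H :=
    Subgroup.commutator_mem_commutator (Subgroup.mem_top a) (Subgroup.mem_top b)
  rw [hbot, Subgroup.mem_bot, commutatorElement_eq_one_iff_mul_comm] at this
  exact this

/-- Many classes relative to a lower bound for the prime divisors: the group is nilpotent. -/
theorem isNilpotent_of_many (s : ℕ) (hs : ∀ q : ℕ, q.Prime → q ∣ Nat.card H → s ≤ q)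
    (hk : Nat.card H < s * Nat.card (ConjClasses H)) : Group.IsNilpotent H := by
  have hD := card_commutator_le s hs hk
  haveI : IsMulCommutative (H ⧸ commutator H) :=
    ⟨⟨fun a b => mul_comm (G := Abelianization H) a b⟩⟩
  haveI : Group.IsNilpotent (H ⧸ commutator H) :=
    @CommGroup.isNilpotent _ { (inferInstance : Group (H ⧸ commutator H)) with
      mul_comm := fun a b => mul_comm (G := Abelianization H) a b }
  refine Subgroup.isNilpotent_of_ker_le_center (QuotientGroup.mk' (commutator H)) ?_
  rw [QuotientGroup.ker_mk']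
  intro z hz
  have hi : (Subgroup.centralizer ({z} : Set H)).index = 1 := by
    by_cases hz1 : z = 1
    · rw [Subgroup.index_eq_one, eq_top_iff]
      exact fun g _ => Subgroup.mem_centralizer_singleton_iff.mpr (by simp [hz1])
    by_contra hne
    obtain ⟨q, hq, hqd⟩ := Nat.exists_prime_and_dvd hne
    have hsq := hs q hq (hqd.trans (Subgroup.index_dvd_card _))
    have hle : (Subgroup.centralizer ({z} : Set H)).index < Nat.card (commutator H) := by
      rw [← card_carrier_eq_index, Nat.card_coe_set_eq, ← SetLike.coe_sort_coe,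
        Nat.card_coe_set_eq]
      refine Set.ncard_lt_ncard ?_ (Set.toFinite _)
      refine Set.ssubset_iff_subset_ne.mpr ⟨fun w hw => ?_, fun he => ?_⟩
      · rw [ConjClasses.mem_carrier_iff_mk_eq, ConjClasses.mk_eq_mk_iff_isConj] at hw
        obtain ⟨g, hg⟩ := isConj_iff.mp hw.symm
        exact hg ▸ Subgroup.Normal.conj_mem inferInstance z hz g
      · have h1 : (1 : H) ∈ (ConjClasses.mk z).carrier := by rw [he]; exact one_mem _
        rw [ConjClasses.mem_carrier_iff_mk_eq, ConjClasses.mk_eq_mk_iff_isConj] at h1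
        exact hz1 (isConj_one_right.mp h1)
    have := Nat.le_of_dvd (Nat.pos_of_ne_zero Subgroup.index_ne_zero_of_finite) hqd
    omega
  rw [Subgroup.mem_center_iff]
  intro g
  have : g ∈ Subgroup.centralizer ({z} : Set H) := by
    rw [Subgroup.index_eq_one] at hi
    rw [hi]
    exact Subgroup.mem_top g
  exact Subgroup.mem_centralizer_singleton_iff.mp this

/-- A sharper bound forces commutativity. -/
theorem commutative_of_many_sq (p : ℕ) (hp : ∀ q : ℕ, q.Prime → q ∣ Nat.card H → p ≤ q)
    (h2 : 2 ≤ p)
    (hk : Nat.card H * (p ^ 2 + p - 1) < p ^ 3 * Nat.card (ConjClasses H)) :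
    IsMulCommutative H := by
  have hlt : Nat.card H < p * Nat.card (ConjClasses H) := by
    refine Nat.lt_of_mul_lt_mul_left (a := p ^ 2) ?_
    calc p ^ 2 * Nat.card H ≤ Nat.card H * (p ^ 2 + p - 1) := by
          rw [mul_comm]; exact Nat.mul_le_mul_left _ (by omega)
      _ < p ^ 3 * Nat.card (ConjClasses H) := hk
      _ = p ^ 2 * (p * Nat.card (ConjClasses H)) := by ring
  have hD := card_commutator_le p hp hlt
  have h1 : Nat.card (commutator H) = 1 := by
    by_contra hne
    obtain ⟨q, hq, hqd⟩ := Nat.exists_prime_and_dvd hne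
    have hpq := hp q hq (hqd.trans (Subgroup.card_subgroup_dvd_card _))
    have := Nat.le_of_dvd Nat.card_pos hqd
    have hDp : Nat.card (commutator H) = p := by omega
    have h := sq_mul_card_classes_le p hp
    have hDL := (commutator H).card_mul_index
    rw [hDp] at hDL
    obtain ⟨t, rfl⟩ : ∃ t, p = t + 2 := ⟨p - 2, by omega⟩
    rw [show (t + 2) ^ 2 + (t + 2) - 1 = (t + 2) ^ 2 + (t + 1) by omega] at hk
    nlinarith
  have hbot : commutator H = ⊥ := Subgroup.card_eq_one.mp h1
  refine ⟨⟨fun a b => ?_⟩⟩
  have : ⁅a, b⁆ ∈ commutator H :=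
    Subgroup.commutator_mem_commutator (Subgroup.mem_top a) (Subgroup.mem_top b)
  rw [hbot, Subgroup.mem_bot, commutatorElement_eq_one_iff_mul_comm] at this
  exact this

end CfsgLib.PiClassHall7
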