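import Cfsg.Agent.PiClassHall7.Basic
import Cfsg.Agent.ClassCount.PiComplement
import Cfsg.Agent.Coprime.Sylow

/-!
Three situations in which a Hall `σ`-subgroup grows to a Hall subgroup meeting every class.
-/

set_option autoImplicit false

open Subgroup
open CfsgLib.ClassCount

namespace CfsgLib.PiClassHall7

universe u

variable {G : Type u} [Group G] [Finite G]

omit [Finite G] in
theorem isNilpotent_of_isMulCommutative {H : Subgroup G} (h : IsMulCommutative H) :
    Group.IsNilpotent H :=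
  letI : CommGroup H := { (inferInstance : Group H) with mul_comm := h.is_comm.comm }
  CommGroup.isNilpotent

omit [Finite G] in
theorem isSolvable_of_isMulCommutative {H : Subgroup G} (h : IsMulCommutative H) :
    Group.IsSolvable H :=
  Group.isSolvable_of_comm fun a b => h.is_comm.comm a b

omit [Finite G] in
theorem isMulCommutative_zpowers (a : G) : IsMulCommutative (zpowers a) :=
  ⟨⟨fun ⟨_, hx⟩ ⟨_, hy⟩ => by
    obtain ⟨i, rfl⟩ := hx
    obtain ⟨j, rfl⟩ := hy
    exact Subtype.ext ((Commute.refl a).zpow_zpow i j).eq⟩⟩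

omit [Finite G] in
theorem isMulCommutative_map {H : Subgroup G} (h : IsMulCommutative H) (g : G) :
    IsMulCommutative (H.map (MulAut.conj g).toMonoidHom) := by
  refine ⟨⟨?_⟩⟩
  rintro ⟨_, a, ha, rfl⟩ ⟨_, b, hb, rfl⟩
  refine Subtype.ext ?_
  show (MulAut.conj g).toMonoidHom a * (MulAut.conj g).toMonoidHom b =
    (MulAut.conj g).toMonoidHom b * (MulAut.conj g).toMonoidHom a
  rw [← map_mul, ← map_mul]
  exact congrArg _ (congrArg Subtype.val (h.is_comm.comm ⟨a, ha⟩ ⟨b, hb⟩))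

omit [Finite G] in
theorem le_centralizer_singleton {H : Subgroup G} (h : IsMulCommutative H) {a : G} (ha : a ∈ H) :
    H ≤ centralizer ({a} : Set G) := fun b hb =>
  mem_centralizer_singleton_iff.mpr (congrArg Subtype.val (h.is_comm.comm ⟨b, hb⟩ ⟨a, ha⟩))

omit [Finite G] in
theorem mem_of_isPiEl {N : Subgroup G} [N.Normal] {α : Set ℕ} {x : G} (hx : IsPiEl α x)
    (h : ∀ q : ℕ, q.Prime → q ∈ α → ¬ q ∣ N.index) : x ∈ N :=
  (QuotientGroup.eq_one_iff x).mp (orderOf_eq_one_iff.mp (Nat.eq_one_of_dvd_coprimes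
    (Nat.coprime_of_dvd fun q hq h1 h2 => h q hq (hx q hq h1) h2)
    (orderOf_map_dvd (QuotientGroup.mk' N) x) (orderOf_dvd_natCard _)))

variable {σ : Finset ℕ} {p : ℕ} [hp : Fact p.Prime] (hσ : ∀ q ∈ σ, q.Prime) (hpσ : p ∉ σ)

include hpσ in
omit hp in
theorem coe_insert_sdiff :
    ((insert p σ : Finset ℕ) : Set ℕ) \ {p} = (σ : Set ℕ) := by
  ext q
  simp only [Finset.coe_insert, Set.mem_sdiff, Set.mem_insert_iff, Set.mem_singleton_iff,
    Finset.mem_coe]
  exact ⟨fun h => h.1.resolve_left h.2, fun h => ⟨Or.inr h, fun e => hpσ (e ▸ h)⟩⟩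

include hpσ in
theorem split_sigma (g : G) (hg : IsPiEl ((insert p σ : Finset ℕ) : Set ℕ) g) :
    ∃ x y : G, x * y = g ∧ Commute x y ∧ IsPiEl (σ : Set ℕ) x ∧ IsPiEl ({p} : Set ℕ) y := by
  obtain ⟨x, y, h1, h2, h3, h4⟩ := exists_split (r := p) hp.out hg
  rw [coe_insert_sdiff hpσ] at h4
  exact ⟨y, x, h2.eq ▸ h1, h2.symm, h4, h3⟩

include hpσ in
theorem split_prime (g : G) (hg : IsPiEl ((insert p σ : Finset ℕ) : Set ℕ) g) :
    ∃ x y : G, x * y = g ∧ Commute x y ∧ IsPiEl ({p} : Set ℕ) x ∧ IsPiEl (σ : Set ℕ) y := by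
  obtain ⟨x, y, h1, h2, h3, h4⟩ := exists_split (r := p) hp.out hg
  rw [coe_insert_sdiff hpσ] at h4
  exact ⟨x, y, h1, h2, h3, h4⟩

include hσ hpσ in
theorem coprime_part_pow (n a : ℕ) : (part σ n).Coprime (p ^ a) :=
  Nat.Coprime.pow_right a (Nat.Coprime.symm (hp.out.coprime_iff_not_dvd.mpr
    fun h => hpσ (prime_mem_of_dvd_part hσ hp.out h)))

theorem isPGroup_zpowers {x : G} (hx : IsPiEl ({p} : Set ℕ) x) : IsPGroup p (zpowers x) := by
  obtain ⟨k, hk⟩ := (isPiEl_singleton_iff hp.out).mp hx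
  exact IsPGroup.of_card (n := k) (by rw [Nat.card_zpowers, hk])

variable {H0 : Subgroup G} (hcard : Nat.card H0 = part σ (Nat.card G))
  (hcomm : IsMulCommutative H0)
  (hcov : ∀ y : G, IsPiEl (σ : Set ℕ) y → ∃ a ∈ H0, IsConj y a)

include hσ hpσ hcard hcov in
/-- A Sylow `p`-subgroup centralising the Hall `σ`-subgroup. -/
theorem exists_of_centralizes (P : Sylow p G) (hP : (P : Subgroup G) ≤ centralizer (H0 : Set G)) :
    ∃ H : Subgroup G, Nat.card H = part (insert p σ) (Nat.card G) ∧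
      ∀ g : G, IsPiEl ((insert p σ : Finset ℕ) : Set ℕ) g → ∃ h ∈ H, IsConj g h := by
  refine ⟨H0 ⊔ P, ?_, cover_of_parts le_sup_left le_sup_right (split_sigma hpσ) hcov
    fun a ha _ y hy hay => ?_⟩
  · rw [card_sup_of_normalizes ((le_centralizer_iff.mp hP).trans (centralizer_le_normalizer _))
      (by rw [hcard, P.card_eq_multiplicity]; exact coprime_part_pow hσ hpσ _ _), hcard,
      P.card_eq_multiplicity, part, part, Finset.prod_insert hpσ, mul_comm]
  · obtain ⟨c, hc, hle⟩ := exists_conj_le (C := centralizer ({a} : Set G)) (H := (P : Subgroup G))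
      (K := zpowers y)
      (fun x hx => mem_centralizer_singleton_iff.mpr (mem_centralizer_iff.mp (hP hx) a ha).symm)
      (zpowers_le.mpr (mem_centralizer_singleton_iff.mpr hay.symm)) P.2.isNilpotent
      P.card_coprime_index (fun q hq hd => by
        rw [Nat.card_zpowers] at hd
        have hqp : q = p := hy q hq hd
        rw [hqp, P.card_eq_multiplicity]
        exact dvd_pow_self p (hp.out.factorization_pos_of_dvd Nat.card_pos.ne'
          (hqp ▸ hd.trans (orderOf_dvd_natCard y))).ne')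
    obtain ⟨w, hw, hwy⟩ := hle (mem_zpowers y)
    refine ⟨c⁻¹, ?_, ?_⟩
    · have h := mem_centralizer_singleton_iff.mp (inv_mem hc)
      exact h
    · have hwy' : c * w * c⁻¹ = y := hwy
      rw [← hwy', inv_inv]
      have e : c⁻¹ * (c * w * c⁻¹) * c = w := by group
      rw [e]
      exact hw

include hσ hpσ hcard hcomm hcov in
/-- A normal `σ`-complement. -/
theorem exists_of_sigma_complement (N : Subgroup G) [N.Normal]
    (hN1 : ∀ q : ℕ, q.Prime → q ∣ Nat.card N → q ∉ σ)
    (hN2 : ∀ q : ℕ, q.Prime → q ∣ N.index → q ∈ σ) :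
    ∃ H : Subgroup G, Nat.card H = part (insert p σ) (Nat.card G) ∧
      ∀ g : G, IsPiEl ((insert p σ : Finset ℕ) : Set ℕ) g → ∃ h ∈ H, IsConj g h := by
  have hAN : ∀ A : Subgroup G, A ≤ normalizer (N : Set G) := fun A => by
    rw [normalizer_eq_top N]; exact le_top
  have hcop : (Nat.card H0).Coprime (Nat.card N) := Nat.coprime_of_dvd fun q hq h1 h2 =>
    hN1 q hq h2 (prime_mem_of_dvd_part hσ hq (hcard ▸ h1))
  obtain ⟨Q, hQ⟩ := CfsgLib.Coprime.exists_invariant_sylow (p := p) (hAN H0) hcop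
    (.inl (isSolvable_of_isMulCommutative hcomm))
  have hQcard : Nat.card ((Q : Subgroup N).map N.subtype) = p ^ (Nat.card G).factorization p := by
    rw [Subgroup.card_map_of_injective N.subtype_injective, Q.card_eq_multiplicity]
    congr 1
    rw [← N.card_mul_index, Nat.factorization_mul Nat.card_pos.ne' Subgroup.index_ne_zero_of_finite,
      Finsupp.add_apply, Nat.factorization_eq_zero_of_not_dvd (fun h => hpσ (hN2 p hp.out h)),
      add_zero]
  refine ⟨H0 ⊔ (Q : Subgroup N).map N.subtype, ?_, cover_of_parts le_sup_left le_sup_right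
    (split_sigma hpσ) hcov fun a ha _ y hy hay => ?_⟩
  · rw [card_sup_of_normalizes hQ (by rw [hcard, hQcard]; exact coprime_part_pow hσ hpσ _ _),
      hcard, hQcard, part, part, Finset.prod_insert hpσ, mul_comm]
  · have hyN : y ∈ N := mem_of_isPiEl hy fun q hq hq' h => by
      rw [Set.mem_singleton_iff.mp hq'] at h
      exact hpσ (hN2 p hp.out h)
    obtain ⟨c, hc, hle⟩ := CfsgLib.Coprime.isPGroup_le_inf_centralizer (A := zpowers a)
      (U := zpowers y) (hAN _)
      (Nat.Coprime.coprime_dvd_left (card_dvd_of_le (zpowers_le.mpr ha)) hcop)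
      (.inl (isSolvable_of_isMulCommutative (isMulCommutative_zpowers a))) Q
      ((zpowers_le.mpr ha).trans hQ) (isPGroup_zpowers hy)
      (le_inf (zpowers_le.mpr hyN) (zpowers_le.mpr (mem_centralizer_iff.mpr (by
        rintro _ ⟨i, rfl⟩
        exact (Commute.zpow_left hay i).eq))))
    refine ⟨c, (mem_centralizer_iff.mp (mem_inf.mp hc).2 a (mem_zpowers a)).symm, ?_⟩
    exact (mem_inf.mp (hle ⟨y, mem_zpowers y, rfl⟩)).1

include hσ hpσ hcard hcomm hcov in
/-- An abelian Sylow `p`-subgroup with a normal complement. -/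
theorem exists_of_prime_complement (P : Sylow p G) (hPc : IsMulCommutative (P : Subgroup G))
    (N : Subgroup G) [N.Normal] (hN1 : ¬ p ∣ Nat.card N)
    (hN2 : ∀ q : ℕ, q.Prime → q ∣ N.index → q = p) :
    ∃ H : Subgroup G, Nat.card H = part (insert p σ) (Nat.card G) ∧
      ∀ g : G, IsPiEl ((insert p σ : Finset ℕ) : Set ℕ) g → ∃ h ∈ H, IsConj g h := by
  have hAN : ∀ A : Subgroup G, A ≤ normalizer (N : Set G) := fun A => by
    rw [normalizer_eq_top N]; exact le_top
  have hsigN : ∀ y : G, IsPiEl (σ : Set ℕ) y → y ∈ N := fun y hy => mem_of_isPiEl hy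
    fun q hq hq' h => hpσ (hN2 q hq h ▸ hq')
  have hH0el : ∀ y ∈ H0, IsPiEl (σ : Set ℕ) y := fun y hy =>
    isPiEl_of_dvd (Subgroup.orderOf_mk y hy ▸ orderOf_dvd_natCard (⟨y, hy⟩ : H0))
      fun q hq hd => prime_mem_of_dvd_part hσ hq (hcard ▸ hd)
  have hcopP : (Nat.card (P : Subgroup G)).Coprime (Nat.card N) := by
    rw [P.card_eq_multiplicity]
    exact Nat.Coprime.pow_left _ (hp.out.coprime_iff_not_dvd.mpr hN1)
  let S : Set (Subgroup G) := {K | ∃ g : G, H0.map (MulAut.conj g).toMonoidHom = K}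
  have hSc : ∀ K ∈ S, Nat.card K = Nat.card H0 := by
    rintro _ ⟨g, rfl⟩
    exact Subgroup.card_map_of_injective (MulAut.conj g).injective
  have hSab : ∀ K ∈ S, IsMulCommutative K := by
    rintro _ ⟨g, rfl⟩
    exact isMulCommutative_map hcomm g
  have hScop : ∀ K ∈ S, (Nat.card K).Coprime K.index := fun K hK =>
    coprime_card_index hσ ((hSc K hK).trans hcard)
  have hSN : ∀ K ∈ S, K ≤ N := by
    rintro _ ⟨g, rfl⟩ _ ⟨y, hy, rfl⟩
    exact hsigN _ (isPiEl_conj g (hH0el y hy))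
  have hSmap : ∀ g : G, ∀ K ∈ S, K.map (MulAut.conj g).toMonoidHom ∈ S := by
    rintro g _ ⟨h, rfl⟩
    exact ⟨g * h, (CfsgLib.Coprime.map_conj_map_conj h g H0).symm⟩
  have hStr : ∀ K ∈ S, ∀ L ∈ S, ∃ g ∈ N, K.map (MulAut.conj g).toMonoidHom = L := fun K hK L hL =>
    exists_conj_eq (hSN K hK) (hSN L hL) (isNilpotent_of_isMulCommutative (hSab K hK))
      (hScop K hK) ((hSc L hL).trans (hSc K hK).symm)
  obtain ⟨H1, hH1, hH1n⟩ := CfsgLib.Coprime.exists_invariant_of_conj_transitive (hAN (P : Subgroup G))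
    hcopP (.inl (isSolvable_of_isMulCommutative hPc))
    (S := S) ⟨H0, 1, CfsgLib.Coprime.map_conj_one H0⟩ (fun a _ K hK => hSmap a K hK)
    (fun g _ K hK => hSmap g K hK) hStr
  refine ⟨(P : Subgroup G) ⊔ H1, ?_, cover_of_parts le_sup_left le_sup_right (split_prime hpσ)
    (fun x hx => ?_) fun a ha hael y hy hay => ?_⟩
  · rw [card_sup_of_normalizes hH1n
      (by rw [hSc H1 hH1, hcard, P.card_eq_multiplicity]; exact (coprime_part_pow hσ hpσ _ _).symm),
      hSc H1 hH1, hcard, P.card_eq_multiplicity, part, part, Finset.prod_insert hpσ]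
  · obtain ⟨a, ha, h⟩ := exists_mem_sylow P ⟨ConjClasses.mk x, mk_prop hx⟩
    exact ⟨a, ha, (ConjClasses.mk_eq_mk_iff_isConj.mp h).symm⟩
  · have hyN := hsigN y hy
    have hfix : ∀ b ∈ zpowers a, b * y * b⁻¹ = y := by
      rintro _ ⟨i, rfl⟩
      show a ^ i * y * (a ^ i)⁻¹ = y
      rw [(Commute.zpow_left hay i).eq, mul_inv_cancel_right]
    let S2 : Set (Subgroup G) := {K | K ∈ S ∧ y ∈ K}
    have hS2map : ∀ g : G, g * y * g⁻¹ = y → ∀ K ∈ S2,
        K.map (MulAut.conj g).toMonoidHom ∈ S2 := fun g hg K hK =>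
      ⟨hSmap g K hK.1, ⟨y, hK.2, hg⟩⟩
    have hnorm : zpowers a ≤ normalizer ((N ⊓ centralizer ({y} : Set G) : Subgroup G) : Set G) := by
      refine fun b hb => mem_normalizer_iff.mpr fun w => ?_
      have hby : b * y = y * b := by
        have := hfix b hb
        calc b * y = b * y * b⁻¹ * b := by group
          _ = y * b := by rw [this]
      simp only [mem_inf, mem_centralizer_singleton_iff]
      have e1 : w ∈ N ↔ b * w * b⁻¹ ∈ N := mem_normalizer_iff.mp (hAN _ hb) w
      have e2 : w * y = y * w ↔ b * w * b⁻¹ * y = y * (b * w * b⁻¹) := by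
        have h1 : b * w * b⁻¹ * (b * y * b⁻¹) = b * (w * y) * b⁻¹ := by group
        have h2 : b * y * b⁻¹ * (b * w * b⁻¹) = b * (y * w) * b⁻¹ := by group
        rw [hfix b hb] at h1 h2
        rw [h1, h2]
        simp
      rw [e1, e2]
    obtain ⟨b, hb, hyb⟩ := hcov y hy
    obtain ⟨u, hu⟩ := isConj_iff.mp hyb.symm
    obtain ⟨K, hK, hKn⟩ := CfsgLib.Coprime.exists_invariant_of_conj_transitive (A := zpowers a)
      (G := N ⊓ centralizer ({y} : Set G)) hnorm
      ((Nat.Coprime.coprime_dvd_left (card_dvd_of_le (zpowers_le.mpr ha)) hcopP).coprime_dvd_right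
        (card_dvd_of_le inf_le_left))
      (.inl (isSolvable_of_isMulCommutative (isMulCommutative_zpowers a))) (S := S2)
      ⟨H0.map (MulAut.conj u).toMonoidHom, ⟨u, rfl⟩, ⟨b, hb, hu⟩⟩
      (fun a' ha' K hK => hS2map a' (hfix a' ha') K hK)
      (fun g hg K hK => hS2map g (by
        rw [mem_centralizer_singleton_iff.mp (mem_inf.mp hg).2, mul_inv_cancel_right]) K hK)
      (fun K hK L hL => exists_conj_eq
        (le_inf (hSN K hK.1) (le_centralizer_singleton (hSab K hK.1) hK.2))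
        (le_inf (hSN L hL.1) (le_centralizer_singleton (hSab L hL.1) hL.2))
        (isNilpotent_of_isMulCommutative (hSab K hK.1)) (hScop K hK.1)
        ((hSc L hL.1).trans (hSc K hK.1).symm))
    obtain ⟨c, hc, hcK⟩ := CfsgLib.Coprime.exists_centralizer_map_conj (A := zpowers a) (G := N)
      (hAN _) (Nat.Coprime.coprime_dvd_left (card_dvd_of_le (zpowers_le.mpr ha)) hcopP)
      (.inl (isSolvable_of_isMulCommutative (isMulCommutative_zpowers a))) hKn
      ((zpowers_le.mpr ha).trans hH1n) (hStr K hK.1 H1 hH1)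
    refine ⟨c, (mem_centralizer_iff.mp (mem_inf.mp hc).2 a (mem_zpowers a)).symm, ?_⟩
    rw [← hcK]
    exact ⟨y, hK.2, rfl⟩

end CfsgLib.PiClassHall7
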